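import Cfsg.Agent.H6.HN.D1.B0

set_option autoImplicit false
set_option maxRecDepth 100000
set_option Elab.async false

namespace Cfsg.H6.HN.D1

theorem hv {G : Type*} [Group G] {ev : ℕ → G} {H : Subgroup G} (h : D.Hyp ev H) :
    ∀ c < 15, D.Valid ev H (D.cl c) :=
  Dce.all_valid h (allR_range k0 (by norm_num : 0 + 15 = 15))


end Cfsg.H6.HN.D1
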